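import Mathlib

/-! The largest prime divisor `r` of a binomial coefficient `C(m, j)` has `m % r < j % r`. -/

set_option autoImplicit false

namespace Cfsg.Agent.H89.Der

open Finset

theorem not_dvd_choose {r a b : ℕ} (hr : r.Prime) (ha : a < r) (hb : b ≤ a) : ¬ r ∣ a.choose b :=
  fun h => absurd ((Nat.Prime.dvd_factorial hr).1 (h.trans (by
    rw [← Nat.choose_mul_factorial_mul_factorial hb, mul_assoc]; exact Dvd.intro _ rfl))) (by omega)

theorem choose_mono {m a b : ℕ} (hab : a ≤ b) (hb : 2 * b ≤ m) : m.choose a ≤ m.choose b := by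
  induction b, hab using Nat.le_induction with
  | base => exact le_rfl
  | succ b _ ih => exact (ih (by omega)).trans (Nat.choose_le_succ_of_lt_half_left (by omega))

theorem desc_ge {m s : ℕ} (hs : s ≤ m) (i : ℕ) (hi : i ≤ s) :
    m ^ i * s.descFactorial i ≤ m.descFactorial i * s ^ i := by
  induction i with
  | zero => simp
  | succ i ih =>
    have h1 : m * (s - i) ≤ (m - i) * s := by
      obtain ⟨a, rfl⟩ := Nat.exists_eq_add_of_le (show i ≤ s by omega)
      obtain ⟨b, rfl⟩ := Nat.exists_eq_add_of_le hs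
      rw [Nat.add_sub_cancel_left, show i + a + b - i = a + b by omega]
      nlinarith [Nat.zero_le (b * i)]
    calc m ^ (i + 1) * s.descFactorial (i + 1) = (m * (s - i)) * (m ^ i * s.descFactorial i) := by
          rw [Nat.descFactorial_succ]; ring
      _ ≤ ((m - i) * s) * (m.descFactorial i * s ^ i) := Nat.mul_le_mul h1 (ih (by omega))
      _ = _ := by rw [Nat.descFactorial_succ]; ring

theorem pow_le_choose_sq {m s : ℕ} (h1 : 1 ≤ s) (hs : s * s ≤ m) : m ^ s ≤ m.choose s ^ 2 := by
  have h2 := desc_ge (m := m) (s := s) (by nlinarith) s le_rfl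
  rw [Nat.descFactorial_self, Nat.descFactorial_eq_factorial_mul_choose, mul_comm (m ^ s),
    mul_assoc] at h2
  have h3 := Nat.le_of_mul_le_mul_left h2 (Nat.factorial_pos s)
  have h4 : m ^ s * m ^ s ≤ m.choose s ^ 2 * m ^ s :=
    calc m ^ s * m ^ s ≤ (m.choose s * s ^ s) * (m.choose s * s ^ s) := Nat.mul_le_mul h3 h3
      _ = m.choose s ^ 2 * (s * s) ^ s := by rw [mul_pow]; ring
      _ ≤ _ := Nat.mul_le_mul_left _ (Nat.pow_le_pow_left hs _)
  exact Nat.le_of_mul_le_mul_right h4 (by have : 0 < m := by nlinarith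
                                          positivity)

theorem choose_le_pow {m j : ℕ} (hm : 0 < m) (hj : j ≤ m) :
    m.choose j ≤ m ^ (m.choose j).primeFactors.card := by
  conv_lhs => rw [← Nat.prod_factorization_pow_eq_self (Nat.choose_pos hj).ne']
  rw [Finsupp.prod, Nat.support_factorization]
  exact prod_le_pow_card _ _ _ fun p _ => Nat.pow_factorization_choose_le hm

theorem card_le {S : Finset ℕ} {r : ℕ} (h : ∀ p ∈ S, p.Prime ∧ p ≤ r) :
    S.card ≤ ((Icc 1 ((r + 1) / 2)).erase 5).card := by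
  refine card_le_card_of_injOn (fun p => (p + 1) / 2) (fun p hp => ?_) fun p hp q hq e => ?_
  · obtain ⟨h1, h2⟩ := h p hp
    have := h1.two_le
    simp only [coe_erase, coe_Icc, Set.mem_sdiff, Set.mem_Icc, Set.mem_singleton_iff]
    refine ⟨⟨by omega, by omega⟩, fun e => ?_⟩
    obtain rfl | rfl : p = 9 ∨ p = 10 := by omega
    all_goals norm_num at h1
  · have h1 := (h p hp).1
    have h2 := (h q hq).1
    have := h1.two_le
    have := h2.two_le
    beta_reduce at e
    rcases h1.eq_two_or_odd with h1 | h1 <;> rcases h2.eq_two_or_odd with h2 | h2 <;> omega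

theorem pow_lt_choose {m r c : ℕ} (hr : r.Prime) (hm : r * r ≤ m)
    (hc : c ≤ ((Icc 1 ((r + 1) / 2)).erase 5).card) : m ^ c < m.choose r := by
  have h2 := hr.two_le
  have hm1 : 1 < m := by nlinarith
  refine (Nat.pow_le_pow_right (by omega) hc).trans_lt ?_
  by_cases h9 : 9 ≤ r
  · have h3 := pow_le_choose_sq (by omega) hm
    rw [card_erase_of_mem (by simp; omega), Nat.card_Icc]
    refine lt_of_pow_lt_pow_left₀ 2 (Nat.zero_le _) (lt_of_lt_of_le ?_ h3)
    rw [← pow_mul]
    exact Nat.pow_lt_pow_right hm1 (by omega)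
  refine Nat.lt_of_mul_lt_mul_left (a := r.factorial) ?_
  rw [← Nat.descFactorial_eq_factorial_mul_choose]
  obtain ⟨n, rfl⟩ := Nat.exists_eq_add_of_le hm
  have : r = 2 ∨ r = 3 ∨ r = 5 ∨ r = 7 := by
    interval_cases r <;> simp_all (config := {decide := true})
  rcases this with rfl | rfl | rfl | rfl
  · have : ((Icc 1 ((2 + 1) / 2)).erase 5).card = 1 := by decide
    rw [this]
    simp only [Nat.descFactorial, Nat.factorial]
    rw [show 2 * 2 + n - 1 = n + 3 by omega]
    simp only [Nat.sub_zero]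
    nlinarith
  · have : ((Icc 1 ((3 + 1) / 2)).erase 5).card = 2 := by decide
    rw [this]
    simp only [Nat.descFactorial, Nat.factorial]
    rw [show 3 * 3 + n - 1 = n + 8 by omega, show 3 * 3 + n - 2 = n + 7 by omega]
    simp only [Nat.sub_zero]
    ring_nf
    omega
  · have : ((Icc 1 ((5 + 1) / 2)).erase 5).card = 3 := by decide
    rw [this]
    simp only [Nat.descFactorial, Nat.factorial]
    rw [show 5 * 5 + n - 1 = n + 24 by omega, show 5 * 5 + n - 2 = n + 23 by omega,
      show 5 * 5 + n - 3 = n + 22 by omega, show 5 * 5 + n - 4 = n + 21 by omega]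
    simp only [Nat.sub_zero]
    ring_nf
    omega
  · have : ((Icc 1 ((7 + 1) / 2)).erase 5).card = 4 := by decide
    rw [this]
    simp only [Nat.descFactorial, Nat.factorial]
    rw [show 7 * 7 + n - 1 = n + 48 by omega, show 7 * 7 + n - 2 = n + 47 by omega,
      show 7 * 7 + n - 3 = n + 46 by omega, show 7 * 7 + n - 4 = n + 45 by omega,
      show 7 * 7 + n - 5 = n + 44 by omega, show 7 * 7 + n - 6 = n + 43 by omega]
    simp only [Nat.sub_zero]
    ring_nf
    omega

theorem lt_or_lt {m j r : ℕ} (hj : 2 * j ≤ m) (hr : r.Prime)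
    (hmax : ∀ s : ℕ, s.Prime → s ∣ m.choose j → s ≤ r) : j < r ∨ m < r * r := by
  by_contra h
  push Not at h
  have h2 := hr.two_le
  have h3 := pow_lt_choose hr h.2 (card_le (S := (m.choose j).primeFactors) fun p hp =>
    ⟨Nat.prime_of_mem_primeFactors hp, hmax p (Nat.prime_of_mem_primeFactors hp)
      (Nat.dvd_of_mem_primeFactors hp)⟩)
  have h4 := choose_mono h.1 hj
  have h5 := choose_le_pow (m := m) (j := j) (by omega) (by omega)
  omega

theorem mod_lt_mod {m j r : ℕ} (hj : j ≤ m) (hr : r.Prime) (hd : r ∣ m.choose j)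
    (h : j < r ∨ m < r * r) : m % r < j % r := by
  by_contra h1
  have := Fact.mk hr
  have h2 := (Choose.choose_modEq_choose_mod_mul_choose_div_nat (n := m) (k := j) (p := r)).symm.trans
    (Nat.modEq_zero_iff_dvd.2 hd)
  rcases (Nat.Prime.dvd_mul hr).1 (Nat.modEq_zero_iff_dvd.1 h2) with h3 | h3
  · exact not_dvd_choose hr (Nat.mod_lt _ hr.pos) (by omega) h3
  · rcases h with h | h
    · rw [Nat.div_eq_of_lt h, Nat.choose_zero_right] at h3
      exact hr.not_dvd_one h3
    · exact not_dvd_choose hr ((Nat.div_lt_iff_lt_mul hr.pos).2 h) (Nat.div_le_div_right hj) h3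

end Cfsg.Agent.H89.Der
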