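import Cfsg.Agent.H89.Der1
import Cfsg.Agent.S0713

/-! Derangements of prime order for transitive actions of the alternating groups. -/

set_option autoImplicit false

namespace Cfsg.Agent.H89.Der

open Equiv Equiv.Perm MulAction Subgroup
open scoped Pointwise

theorem exists_conj_mem {G : Type*} [Group G] [Finite G] {H : Subgroup G} {p : ℕ} (hp : p.Prime)
    (h : ¬ p ∣ H.index) {g : G} (hg : orderOf g = p) : ∃ c : G, c * g * c⁻¹ ∈ H := by
  have := Fact.mk hp
  have h1 : IsPGroup p (zpowers g) := IsPGroup.of_card (n := 1) (by rw [Nat.card_zpowers, hg, pow_one])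
  obtain ⟨q, hq⟩ := h1.nonempty_fixed_point_of_prime_not_dvd_card (G ⧸ H) h
  obtain ⟨c, rfl⟩ := QuotientGroup.mk_surjective q
  have h2 : ((g * c : G) : G ⧸ H) = c := hq ⟨g, mem_zpowers g⟩
  refine ⟨c⁻¹, ?_⟩
  simpa [mul_assoc] using QuotientGroup.eq.1 h2.symm

theorem not_conj_mem {G : Type*} [Group G] [Finite G] {H : Subgroup G} {p : ℕ} (hp : p.Prime)
    (h : p ∣ H.index) (h' : ¬ p ∣ Nat.card H) :
    ∃ g : G, orderOf g = p ∧ ∀ c : G, c * g * c⁻¹ ∉ H := by
  have := Fact.mk hp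
  obtain ⟨g, hg⟩ := exists_prime_orderOf_dvd_card' p (h.trans H.index_dvd_card)
  refine ⟨g, hg, fun c hc => h' ?_⟩
  rw [← hg, ← (MulAut.conj c).orderOf_eq g]
  exact orderOf_dvd_natCard H hc

variable {m : ℕ}

theorem exists_rep {r c : ℕ} (hr : r.Prime) (hc : 0 < c) (h : c * r ≤ m) (hs : Even (c * r + c)) :
    ∃ g : alternatingGroup (Fin m), orderOf g = r ∧ (g : Perm (Fin m)).cycleType = Multiset.replicate c r := by
  obtain ⟨g, hg⟩ := (exists_with_cycleType_iff (Fin m) (m := Multiset.replicate c r)).2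
    ⟨by simpa using h, fun a ha => by rw [Multiset.eq_of_mem_replicate ha]; exact hr.two_le⟩
  refine ⟨⟨g, ?_⟩, ?_, hg⟩
  · rw [mem_alternatingGroup, sign_of_cycleType, hg]
    simpa using hs.neg_one_pow
  · rw [← Subgroup.orderOf_coe, ← lcm_cycleType, hg]
    obtain ⟨c, rfl⟩ := Nat.exists_eq_succ_of_ne_zero hc.ne'
    refine Nat.dvd_antisymm (Multiset.lcm_dvd.2 fun a ha => by rw [Multiset.eq_of_mem_replicate ha])
      (Multiset.dvd_lcm (by simp))

theorem mod_le_of_inv {r : ℕ} (hr : r.Prime) {g : Perm (Fin m)}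
    (hg : g.cycleType = Multiset.replicate (m / r) r) {J : Finset (Fin m)} (hJ : ∀ x, g x ∈ J ↔ x ∈ J) :
    J.card % r ≤ m % r := by
  have := Fact.mk hr
  have h1 : g ^ r = 1 := orderOf_dvd_iff_pow_eq_one.1 (by
    rw [← lcm_cycleType, hg]
    exact Multiset.lcm_dvd.2 fun a ha => by rw [Multiset.eq_of_mem_replicate ha])
  have h2 : g.support.card = m / r * r := by rw [← sum_cycleType, hg]; simp
  have h3 : IsPGroup r (zpowers (g.subtypePerm (p := (· ∈ J)) hJ)) := by
    refine IsPGroup.of_card_dvd_pow (n := 1) ?_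
    rw [Nat.card_zpowers, pow_one, orderOf_dvd_iff_pow_eq_one, subtypePerm_pow]
    ext x
    simp [h1]
  have h4 := h3.card_modEq_card_fixedPoints {x // x ∈ J}
  have h5 : Nat.card (fixedPoints (zpowers (g.subtypePerm (p := (· ∈ J)) hJ)) {x // x ∈ J}) ≤
      Nat.card {x // x ∈ g.supportᶜ} := by
    refine Nat.card_le_card_of_injective (fun x => ⟨x.1.1, ?_⟩) fun x y e => ?_
    · have := congrArg Subtype.val (x.2 ⟨_, mem_zpowers _⟩)
      simpa using this
    · exact Subtype.ext (Subtype.ext (congrArg Subtype.val e :))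
  rw [Nat.card_eq_fintype_card (α := {x // x ∈ g.supportᶜ}), Fintype.card_coe, Finset.card_compl, h2,
    Fintype.card_fin, ← Nat.mod_eq_sub_div_mul] at h5
  rw [Nat.card_eq_fintype_card, Fintype.card_coe] at h4
  rw [show J.card % r = _ from h4]
  exact (Nat.mod_le _ _).trans h5

theorem case_big (hm : 5 ≤ m) {H : Subgroup (alternatingGroup (Fin m))} {r : ℕ} (hr : r.Prime)
    (hd : r ∣ H.index) (h : m < 2 * r) : ¬ r ∣ Nat.card H := by
  intro h1
  have : Nontrivial (Fin m) := Fin.nontrivial_iff_two_le.2 (by omega)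
  have h2 : r ^ 2 ∣ m.factorial := by
    rw [← Fintype.card_fin m, ← Fintype.card_perm, ← Nat.card_eq_fintype_card,
      ← two_mul_nat_card_alternatingGroup, ← H.card_mul_index, sq]
    exact (Nat.mul_dvd_mul h1 hd).mul_left 2
  have h3 := hr.two_le
  rw [Nat.Prime.pow_dvd_factorial_iff hr (b := 2) (Nat.log_lt_of_lt_pow (by omega) (by nlinarith))] at h2
  simp only [Nat.Ico_succ_singleton, Finset.sum_singleton, pow_one] at h2
  have := (Nat.le_div_iff_mul_le hr.pos).1 h2
  omega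

theorem prim {H : Subgroup (Perm (Fin m))} [IsPretransitive H (Fin m)] {x : Perm (Fin m)} (hx : x ∈ H)
    (hp : (orderOf x).Prime) (h : m < 2 * orderOf x) : IsPreprimitive H (Fin m) := by
  have hc : x.IsCycle := isCycle_of_prime_order' hp (by simpa using h)
  obtain ⟨a, ha, ha'⟩ := id hc
  have h1 : orbit (zpowers x) a = x.support := by
    ext b
    simp only [Finset.mem_coe, mem_support]
    constructor
    · rintro ⟨⟨_, k, rfl⟩, rfl⟩
      exact mem_support.1 (zpow_apply_mem_support.2 (mem_support.2 ha))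
    · intro hb
      obtain ⟨k, hk⟩ := ha' hb
      exact ⟨⟨_, k, rfl⟩, hk⟩
  have h2 : (orbit (zpowers x) a).ncard = orderOf x := by
    rw [h1, Set.ncard_coe_finset, hc.orderOf]
  have : IsPreprimitive (zpowers x) (orbit (zpowers x) a) :=
    IsPreprimitive.of_prime_card (by rw [Nat.card_coe_set_eq, h2]; exact hp)
  let f : orbit (zpowers x) a →ₑ[(Subgroup.inclusion (zpowers_le.2 hx) : zpowers x → H)] Fin m :=
    ⟨Subtype.val, fun _ _ => rfl⟩
  refine IsPreprimitive.of_card_lt (f := f) ?_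
  rw [show Set.range f = orbit (zpowers x) a from Subtype.range_val, h2]
  simpa using h

theorem core (hm : 5 ≤ m) (H : Subgroup (alternatingGroup (Fin m))) {r : ℕ} (hr : r.Prime)
    (hd : r ∣ H.index) (hmax : ∀ s : ℕ, s.Prime → s ∣ H.index → s ≤ r)
    (hst : m ≠ 6 → ∀ J : Finset (Fin m), J.Nonempty → J ≠ Finset.univ →
      (∀ σ : Perm (Fin m), (∀ h ∈ H, MulAut.conjNormal σ h ∈ H) → ∀ x, σ x ∈ J ↔ x ∈ J) →
      ∀ g : alternatingGroup (Fin m), (∀ x, g.1 x ∈ J ↔ x ∈ J) → g ∈ H) :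
    ∃ g : alternatingGroup (Fin m), orderOf g = r ∧ ∀ c, c * g * c⁻¹ ∉ H := by
  classical
  by_cases hb : m < 2 * r
  · exact not_conj_mem hr hd (case_big hm hr hd hb)
  have : Nontrivial (Fin m) := Fin.nontrivial_iff_two_le.2 (by omega)
  obtain ⟨p, hp, p1, p2⟩ := Nat.exists_prime_lt_and_le_two_mul (m / 2) (by omega)
  have p3 : p ∣ Nat.card H := by
    have h1 : p ∣ 2 * (Nat.card H * H.index) := by
      rw [H.card_mul_index, two_mul_nat_card_alternatingGroup, Nat.card_eq_fintype_card,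
        Fintype.card_perm, Fintype.card_fin]
      exact (Nat.Prime.dvd_factorial hp).2 (by omega)
    rcases (Nat.Prime.dvd_mul hp).1 h1 with h1 | h1
    · have := Nat.le_of_dvd two_pos h1; omega
    · exact ((Nat.Prime.dvd_mul hp).1 h1).resolve_right fun h2 => by have := hmax p hp h2; omega
  have := Fact.mk hp
  obtain ⟨⟨x, hxH⟩, hx⟩ := exists_prime_orderOf_dvd_card' p p3
  rw [← Subgroup.orderOf_coe, ← Subgroup.orderOf_coe] at hx
  change orderOf x.1 = p at hx
  have hc : x.1.IsCycle := isCycle_of_prime_order' (hx ▸ hp) (by rw [hx]; simp; omega)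
  obtain ⟨a, ha, ha'⟩ := id hc
  obtain ⟨K, hK⟩ : ∃ K : Finset (Fin m), ∀ y, y ∈ K ↔ ∃ h ∈ H, h.1 a = y :=
    ⟨Finset.univ.filter fun y => ∃ h ∈ H, h.1 a = y, by simp⟩
  have K1 : p ≤ K.card := by
    rw [← hx, hc.orderOf]
    refine Finset.card_le_card fun y hy => ?_
    obtain ⟨k, hk⟩ := ha' (mem_support.1 hy)
    exact (hK y).2 ⟨x ^ k, zpow_mem hxH k, hk⟩
  have K2 : ∀ h ∈ H, ∀ y ∈ K, h.1 y ∈ K := fun h hh y hy => by
    obtain ⟨k, hk, rfl⟩ := (hK y).1 hy
    exact (hK _).2 ⟨h * k, mul_mem hh hk, rfl⟩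
  have K3 : ∀ y ∈ K, ∀ z ∈ K, ∃ h ∈ H, h.1 y = z := fun y hy z hz => by
    obtain ⟨k, hk, rfl⟩ := (hK y).1 hy
    obtain ⟨l, hl, rfl⟩ := (hK z).1 hz
    exact ⟨l * k⁻¹, mul_mem hl (inv_mem hk), by simp⟩
  have cyc : ∀ c g : alternatingGroup (Fin m), (c * g * c⁻¹).1.cycleType = g.1.cycleType :=
    fun c g => cycleType_conj
  by_cases hu : K = Finset.univ
  · have : IsPretransitive (H.map (alternatingGroup (Fin m)).subtype) (Fin m) := ⟨fun y z => by
      obtain ⟨h, hh, e⟩ := K3 y (by simp [hu]) z (by simp [hu])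
      exact ⟨⟨h.1, h, hh, rfl⟩, e⟩⟩
    have hP : IsPreprimitive (H.map (alternatingGroup (Fin m)).subtype) (Fin m) :=
      prim (x := x.1) ⟨x, hxH, rfl⟩ (hx ▸ hp) (by omega)
    have hne : ¬ alternatingGroup (Fin m) ≤ H.map (alternatingGroup (Fin m)).subtype := fun h => by
      have : H = ⊤ := eq_top_iff.2 fun g _ => by
        obtain ⟨k, hk, e⟩ := h g.2
        exact (Subtype.ext e : k = g) ▸ hk
      rw [this, index_top] at hd
      exact hr.not_dvd_one hd
    rcases hr.eq_two_or_odd' with rfl | ho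
    · obtain ⟨t, t1, t2⟩ := exists_rep (m := m) (c := 1) Nat.prime_three one_pos (by omega) (by decide)
      obtain ⟨c, hc⟩ := exists_conj_mem Nat.prime_three
        (fun h => by have := hmax 3 Nat.prime_three h; omega) t1
      exact (hne (alternatingGroup_le_of_isPreprimitive_of_isThreeCycle_mem hP
        (g := (c * t * c⁻¹).1) ((cyc c t).trans t2) ⟨_, hc, rfl⟩)).elim
    · obtain ⟨g, g1, g2⟩ := exists_rep (m := m) (c := 1) hr one_pos (by omega)
        (by simpa using ho.add_one)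
      have h3 : 3 ≤ r := by have := hr.two_le; obtain ⟨k, hk⟩ := ho; omega
      refine ⟨g, g1, fun c hc => hne (S0713.result _ hP hr (by simpa using hm) (by simp; omega)
        (g := (c * g * c⁻¹).1) (card_cycleType_eq_one.1 (by rw [cyc, g2]; simp))
        (by rw [← sum_cycleType, cyc, g2]; simp) ⟨_, hc, rfl⟩)⟩
  have hJ : ∀ σ : Perm (Fin m), (∀ h ∈ H, MulAut.conjNormal σ h ∈ H) → ∀ y, σ y ∈ Kᶜ ↔ y ∈ Kᶜ := by
    intro σ hσ
    obtain ⟨b, hb⟩ := Finset.inter_nonempty_of_card_lt_card_add_card (K.subset_univ)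
      ((K.map σ.toEmbedding).subset_univ) (by simp; omega)
    obtain ⟨b1, b2⟩ := Finset.mem_inter.1 hb
    obtain ⟨b, b3, rfl⟩ := Finset.mem_map.1 b2
    have h1 : K.map σ.toEmbedding = K := Finset.eq_of_subset_of_card_le (fun y hy => by
      obtain ⟨z, hz, rfl⟩ := Finset.mem_map.1 hy
      obtain ⟨h, hh, rfl⟩ := K3 b b3 z hz
      simpa using K2 _ (hσ h hh) _ b1) (by simp)
    intro y
    rw [Finset.mem_compl, Finset.mem_compl, not_iff_not]
    conv_lhs => rw [← h1]
    exact Finset.mem_map' σ.toEmbedding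
  have hJ' : ∀ h ∈ H, ∀ y, h.1 y ∈ Kᶜ ↔ y ∈ Kᶜ := fun h hh => hJ h.1 fun k hk =>
    mul_mem (mul_mem hh hk) (inv_mem hh)
  have J0 : Kᶜ.Nonempty := Finset.nonempty_iff_ne_empty.2 fun h => hu (Finset.compl_eq_empty_iff _ |>.1 h)
  have J1 : Kᶜ.card = m - K.card := by rw [Finset.card_compl, Fintype.card_fin]
  have J2 := J0.card_pos
  have := Set.powersetCard.isPretransitive_alternatingGroup (α := Fin m) (n := Kᶜ.card) (by simp; omega)
  have J3 : ∀ g : alternatingGroup (Fin m), g ∈ stabilizer (alternatingGroup (Fin m))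
      (Set.powersetCard.ofCard (s := Kᶜ) rfl) ↔ ∀ y, g.1 y ∈ Kᶜ ↔ y ∈ Kᶜ := fun g => by
    rw [mem_stabilizer_iff, Subtype.ext_iff]
    exact mem_stabilizer_finset (a := g.1) (s := Kᶜ)
  have J4 := index_stabilizer_of_transitive (alternatingGroup (Fin m))
    (Set.powersetCard.ofCard (s := Kᶜ) rfl)
  rw [Set.powersetCard.card, Nat.card_fin] at J4
  have key : m % r < Kᶜ.card % r ∧ Even (m / r * r + m / r) := by
    by_cases h6 : m = 6
    · have h1 : m.choose Kᶜ.card ∣ H.index := J4 ▸ index_dvd_of_le fun h hh => (J3 h).2 (hJ' h hh)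
      have h5 : p = 5 := by
        obtain rfl | rfl | rfl : p = 4 ∨ p = 5 ∨ p = 6 := by omega
        all_goals first | rfl | norm_num at hp
      have h2 : Kᶜ.card = 1 := by omega
      rw [h2, Nat.choose_one_right] at h1
      have h3 := hmax 3 Nat.prime_three (Dvd.dvd.trans (by omega) h1)
      rw [h2, h6, show r = 3 by omega]
      decide
    have h1 : H.index = m.choose Kᶜ.card := by
      rw [← J4]
      congr 1
      ext g
      rw [J3]
      exact ⟨hJ' g, hst h6 _ J0 (fun h => by have := congrArg Finset.card h; simp at this; omega) hJ g⟩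
    rw [h1] at hd hmax
    have h2 := lt_or_lt (by omega) hr hmax
    refine ⟨mod_lt_mod (by omega) hr hd h2, ?_⟩
    rcases hr.eq_two_or_odd' with rfl | ho
    · rw [show Kᶜ.card = 1 by omega, Nat.choose_one_right] at hd hmax
      by_contra h3
      have h4 : m / 2 % 2 = 1 := by
        rw [Nat.not_even_iff_odd, Nat.odd_iff] at h3
        omega
      have h5 := Nat.minFac_prime (n := m / 2) (by omega)
      have h7 := Nat.minFac_dvd (m / 2)
      have h8 := hmax _ h5 (h7.trans (Nat.div_dvd_of_dvd hd))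
      have h9 := h5.two_le
      rw [show (m / 2).minFac = 2 by omega] at h7
      omega
    · rw [← Nat.mul_succ]
      exact ho.add_one.mul_left _
  obtain ⟨g, g1, g2⟩ := exists_rep (m := m) hr (Nat.div_pos (by omega) hr.pos) (Nat.div_mul_le_self _ _)
    key.2
  exact ⟨g, g1, fun c hc => key.1.not_ge (mod_le_of_inv hr ((cyc c g).trans g2) (hJ' _ hc))⟩

end Cfsg.Agent.H89.Der
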