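import Cfsg.Agent.DIM4.Irr

/-! Project DIM4: the projection onto the simple quotient. -/

set_option autoImplicit false
set_option linter.unusedSectionVars false

namespace Cfsg.Agent.DIM4

open Matrix

variable {F : Type*} [Field F] [Finite F] {H P : Subgroup (G4 F)}

theorem Res.pi89 (h : Res H P) {Q : Type*} [Group Q] (e : P ⧸ ZP P ≃* Q) :
    ∃ π : P →* Q, Function.Surjective π ∧ (∀ a, π a = 1 ↔ (a : G4 F) = 1 ∨ (a : G4 F) = -1) ∧
      ∀ a b, π a = π b → (a : G4 F) = b ∨ (a : G4 F) = -b := by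
  have k : ∀ a, e.toMonoidHom.comp (QuotientGroup.mk' (ZP P)) a = 1 ↔
      (a : G4 F) = 1 ∨ (a : G4 F) = -1 := fun a =>
    (map_eq_one_iff _ e.injective).trans ((QuotientGroup.eq_one_iff a).trans h.mem_ZP)
  refine ⟨_, e.surjective.comp QuotientGroup.mk_surjective, k, fun a b e => ?_⟩
  have := (k (b⁻¹ * a)).1 (by rw [map_mul, map_inv, e, inv_mul_cancel])
  rw [Subgroup.coe_mul, Subgroup.coe_inv, inv_mul_eq_one, inv_mul_eq_iff_eq_mul, mul_neg_one] at this
  exact this.imp Eq.symm id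

omit [Finite F] in
theorem ne_neg89 (h2 : (2 : F) ≠ 0) (g : G4 F) : g ≠ -g := fun hg => h2 (by
  have := congrArg (fun x : G4 F => ((x * g⁻¹ : G4 F) : M4 F) (.inl 0) (.inl 0)) hg
  simp only [mul_inv_cancel, neg_mul, Units.val_neg, Units.val_one, Matrix.neg_apply,
    one_apply_eq] at this
  linear_combination this)

end Cfsg.Agent.DIM4
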