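import Cfsg.Agent.H89.AMGM
import Cfsg.Agent.H89.CharAux
import Cfsg.Agent.H88.Deg
import Cfsg.Agent.H6.Ito
import Cfsg.Agent.H21.Basic

/-!
Knörr's lattice argument for the `k(GV)` problem with an abelian point stabiliser.
-/

set_option autoImplicit false
set_option linter.style.haveILetI false

namespace Cfsg.Agent.H89

open Cfsg Cfsg.Agent.H5 Cfsg.Agent.H7 Subgroup
open scoped ComplexConjugate

theorem apply_ne_zero_of_pElem {G : Type*} [Group G] [Finite G] {χ : G → ℂ}
    (hχ : IsCharacter G χ) {p : ℕ} (hp : p.Prime) (hd : ¬ p ∣ charDegree χ) {u : G} {k : ℕ}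
    (hu : u ^ p ^ k = 1) : χ u ≠ 0 := by
  intro h0
  let u' : zpowers u := ⟨u, mem_zpowers u⟩
  have hcomm : ∀ a b : zpowers u, a * b = b * a := fun a b =>
    (IsMulCommutative.is_comm (M := zpowers u)).comm a b
  have := int_dvd_sub_of_char hcomm hp (isCharacter_restrict hχ (zpowers u)) (u := u') (k := k)
    (Subtype.ext (by simpa [u'] using hu)) 1 (a := 0) (b := charDegree χ) (by simpa [u'] using h0)
    (by simpa using (H88.charDegree_cast hχ).symm)
  rw [zero_sub, dvd_neg] at this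
  exact hd (by exact_mod_cast this)

theorem card_le_of_decomp {X : Type*} [Group X] [Finite X] (T A B : Subgroup X)
    (h : ∀ y ∈ T, ∃ a ∈ A, ∃ b ∈ B, y = a * b) : Nat.card T ≤ Nat.card A * Nat.card B := by
  choose a ha b hb hab using h
  rw [← Nat.card_prod]
  refine Nat.card_le_card_of_injective
    (fun y : T => ((⟨a y y.2, ha y y.2⟩ : A), (⟨b y y.2, hb y y.2⟩ : B))) fun y y' hy => ?_
  simp only [Prod.mk.injEq, Subtype.mk.injEq] at hy
  apply Subtype.ext
  rw [hab y y.2, hab y' y'.2, hy.1, hy.2]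

theorem sum_norm_sq_col {X : Type*} [Group X] [Finite X] (g : X) :
    ∑ χ : IrrCharacter X, ‖(χ : X → ℂ) g‖ ^ 2 = Nat.card (centralizer ({g} : Set X)) := by
  have h := sum_irr_mul_conj_of_isConj (IsConj.refl g)
  simp only [Complex.mul_conj, Complex.normSq_eq_norm_sq] at h
  exact_mod_cast h

/-- lower bound for the weighted norm of the characters not vanishing on the support -/
def KB {A : Type*} [Group A] [Fintype A] (w : A → ℝ) (κ : ℝ) : Prop :=
  ∀ η : A → ℂ, IsCharacter A η → (∃ a, w a ≠ 0 ∧ η a ≠ 0) →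
    κ * (Nat.card A : ℝ) ^ 2 ≤ ∑ a, w a * ‖η a‖ ^ 2

section Base

variable {Z : Type*} [Group Z] [Fintype Z]

theorem exists_coprime_pow_of_orderOf {z z' : Z} (hz : orderOf z = Nat.card Z)
    (hz' : orderOf z' = Nat.card Z) : ∃ m : ℕ, m.Coprime (Nat.card Z) ∧ z' = z ^ m := by
  have htop : zpowers z = ⊤ := by
    apply eq_top_of_card_eq
    rw [Nat.card_zpowers, hz]
  have hm : z' ∈ zpowers z := htop ▸ mem_top _
  obtain ⟨m, hm⟩ := (mem_powers_iff_mem_zpowers).2 hm
  refine ⟨m, ?_, hm.symm⟩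
  simp only at hm
  have h1 := orderOf_pow (n := m) z
  rw [hm, hz, hz'] at h1
  have hpos : 0 < Nat.card Z := Nat.card_pos
  have h2 : Nat.card Z * Nat.gcd (Nat.card Z) m = Nat.card Z * 1 := by
    conv_lhs => lhs; rw [h1]
    rw [Nat.div_mul_cancel (Nat.gcd_dvd_left _ _), mul_one]
  exact (Nat.coprime_comm.1 (Nat.eq_of_mul_eq_mul_left hpos h2))

theorem card_gen_le_sum {η : Z → ℂ} (hη : IsCharacter Z η) {z : Z} (hz : orderOf z = Nat.card Z)
    (h : η z ≠ 0) :
    ((Finset.univ.filter fun a : Z => orderOf a = Nat.card Z).card : ℝ) ≤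
      ∑ a ∈ Finset.univ.filter fun a : Z => orderOf a = Nat.card Z, ‖η a‖ ^ 2 := by
  refine card_le_sum_norm_pow hη _ (fun g hg m hm => ?_) (fun g hg => ?_) 2
  · simp only [Finset.mem_filter, Finset.mem_univ, true_and] at hg ⊢
    rw [Nat.Coprime.orderOf_pow (by rw [hg]; exact hm.symm), hg]
  · simp only [Finset.mem_filter, Finset.mem_univ, true_and] at hg
    obtain ⟨m, hm, rfl⟩ := exists_coprime_pow_of_orderOf hz hg
    obtain ⟨τ, hτ⟩ := exists_ringEquiv_character_pow Z hm
    rw [← hτ η hη z]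
    exact (map_ne_zero τ.toRingHom).mpr h

theorem kb_base :
    KB (fun a : Z => if orderOf a = Nat.card Z then (1 : ℝ) else 0)
      (((Finset.univ.filter fun a : Z => orderOf a = Nat.card Z).card : ℝ) /
        (Nat.card Z : ℝ) ^ 2) := by
  rintro η hη ⟨a, ha, ha'⟩
  have hz : orderOf a = Nat.card Z := by
    by_contra h
    exact ha (if_neg h)
  have hpos : (Nat.card Z : ℝ) ≠ 0 := by exact_mod_cast Nat.card_pos.ne'
  rw [div_mul_cancel₀ _ (pow_ne_zero 2 hpos)]
  refine (card_gen_le_sum hη hz ha').trans (le_of_eq ?_)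
  rw [Finset.sum_filter]
  refine Finset.sum_congr rfl fun a _ => ?_
  beta_reduce
  split_ifs
  · rw [one_mul]
  · rw [zero_mul]

end Base

section Sub

variable {A B : Type*} [Group A] [Fintype A] [Group B] [Fintype B]

theorem kb_comp (hA : ∀ a b : A, a * b = b * a) (f : B →* A) (hf : Function.Injective f)
    {w : A → ℝ} {κ : ℝ} (h : KB w κ) : KB (fun b => w (f b)) κ := by
  classical
  rintro η hη ⟨b₀, hb, hb'⟩
  have hA0 : (Nat.card A : ℝ) ≠ 0 := by exact_mod_cast Nat.card_pos.ne'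
  have hB0 : (Nat.card B : ℝ) ≠ 0 := by exact_mod_cast Nat.card_pos.ne'
  have hA1 : (Nat.card A : ℂ) ≠ 0 := by exact_mod_cast Nat.card_pos.ne'
  have hB1 : (Nat.card B : ℂ) ≠ 0 := by exact_mod_cast Nat.card_pos.ne'
  let η' : A → ℂ := fun a => (Nat.card A : ℂ) / Nat.card B * ∑ b, if f b = a then η b else 0
  have h1 : ∀ b, η' (f b) = (Nat.card A : ℂ) / Nat.card B * η b := by
    intro b
    simp only [η', hf.eq_iff, Finset.sum_ite_eq', Finset.mem_univ, if_true]
  have h2 : ∀ a, a ∉ Set.range f → η' a = 0 := by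
    intro a ha
    simp only [η']
    rw [Finset.sum_eq_zero, mul_zero]
    intro b _
    rw [if_neg]
    exact fun h => ha ⟨b, h⟩
  have hsum : ∀ {R : Type} [AddCommMonoid R] (F : A → R), (∀ a, a ∉ Set.range f → F a = 0) →
      ∑ a, F a = ∑ b, F (f b) := by
    intro R _ F hF
    symm
    exact Fintype.sum_of_injective f hf _ _ hF (fun _ => rfl)
  have hchar : IsCharacter A η' := by
    refine isCharacter_of_forall_classInner_nat (fun g h => by
      rw [hA h g, mul_inv_cancel_right]) fun χ hχ => ?_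
    obtain ⟨n, hn⟩ := exists_nat_classInner hη (isCharacter_comp (isCharacter_of_isIrr hχ) f)
    refine ⟨n, ?_⟩
    rw [← hn]
    unfold classInner
    rw [hsum _ (fun a ha => by rw [h2 a ha, zero_mul])]
    simp only [h1, mul_assoc, ← Finset.mul_sum]
    field_simp
  have h3 := h η' hchar ⟨f b₀, hb, by
    rw [h1]; exact mul_ne_zero (div_ne_zero hA1 hB1) hb'⟩
  rw [hsum _ (fun a ha => by rw [h2 a ha]; simp)] at h3
  simp only [h1, norm_mul, norm_div, Complex.norm_natCast, mul_pow] at h3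
  have h4 : ∑ b, w (f b) * (((Nat.card A : ℝ) / Nat.card B) ^ 2 * ‖η b‖ ^ 2) =
      ((Nat.card A : ℝ) / Nat.card B) ^ 2 * ∑ b, w (f b) * ‖η b‖ ^ 2 := by
    rw [Finset.mul_sum]
    exact Finset.sum_congr rfl fun b _ => by ring
  rw [h4] at h3
  have hpos : 0 < ((Nat.card A : ℝ) / Nat.card B) ^ 2 := by positivity
  refine le_of_mul_le_mul_left ?_ hpos
  refine le_trans (le_of_eq ?_) h3
  field_simp

end Sub

section Prod

variable {A M : Type*} [Group A] [Fintype A] [Group M] [Fintype M]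

theorem card_irr_of_comm (hM : ∀ a b : M, a * b = b * a) :
    Fintype.card (IrrCharacter M) = Nat.card M := by
  have h := H88.sum_charDegree_sq (G := M)
  have h1 : ∀ χ : IrrCharacter M, charDegree (χ : M → ℂ) = 1 := fun χ =>
    H88.charDegree_eq_of_eq (by simpa using H5.degree_eq_one_of_comm hM χ.2)
  simpa [h1] using h

theorem kb_prod [DecidableEq M] (hM : ∀ a b : M, a * b = b * a) {w : A → ℝ} (hw : ∀ a, 0 ≤ w a)
    {κ : ℝ} (hκ : 0 ≤ κ) (h : KB w κ) :
    KB (fun x : A × M => w x.1 * if x.2 = 1 then 1 else (Nat.card M : ℝ) + 1) κ := by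
  classical
  rintro η hη ⟨⟨a₀, m₀⟩, hb, hb'⟩
  have hM0 : (0 : ℝ) < Nat.card M := by exact_mod_cast Nat.card_pos
  let x : IrrCharacter M → A → ℂ := fun β a => classInner (fun m => η (a, m)) β
  have hcf : ∀ a, IsClassFunction M (fun m => η (a, m)) := fun a g h => by
    rw [hM h g, mul_inv_cancel_right]
  have hx : ∀ β, IsCharacter A (x β) := by
    intro β
    have := isCharacter_partial_inner (MonoidHom.inr A M) (MonoidHom.inl A M)
      (fun c s => (MonoidHom.commute_inl_inr s c).symm) hη (isCharacter_of_isIrr β.2)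
    simpa [x] using this
  have hexp : ∀ a m, η (a, m) = ∑ β : IrrCharacter M, x β a * (β : M → ℂ) m := fun a m =>
    classFunction_apply_eq_sum (hcf a) m
  have hone : ∀ a, η (a, 1) = ∑ β : IrrCharacter M, x β a := by
    intro a
    rw [hexp]
    exact Finset.sum_congr rfl fun β _ => by rw [H5.degree_eq_one_of_comm hM β.2, mul_one]
  have hpars : ∀ a, ∑ m, ‖η (a, m)‖ ^ 2 = Nat.card M * ∑ β : IrrCharacter M, ‖x β a‖ ^ 2 := by
    intro a
    have h1 := classInner_eq_sum_irr (f' := fun m => η (a, m)) (hcf a)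
    rw [classInner_self_eq] at h1
    have h2 : ∀ β : IrrCharacter M, classInner (fun m => η (a, m)) β *
        classInner (β : M → ℂ) (fun m => η (a, m)) = ((‖x β a‖ ^ 2 : ℝ) : ℂ) := by
      intro β
      rw [← conj_classInner (fun m => η (a, m)), Complex.mul_conj, Complex.normSq_eq_norm_sq]
    simp only [h2] at h1
    have h3 : (Nat.card M : ℝ)⁻¹ * ∑ m, ‖η (a, m)‖ ^ 2 = ∑ β : IrrCharacter M, ‖x β a‖ ^ 2 := by
      exact_mod_cast h1
    rw [← h3]
    field_simp
  let T : Finset (IrrCharacter M) := Finset.univ.filter fun β => ∃ a, w a ≠ 0 ∧ x β a ≠ 0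
  have hw0 : w a₀ ≠ 0 := left_ne_zero_of_mul hb
  have hT : T.Nonempty := by
    by_contra hT
    apply hb'
    rw [hexp]
    refine Finset.sum_eq_zero fun β _ => ?_
    by_contra hβ
    exact hT ⟨β, Finset.mem_filter.2 ⟨Finset.mem_univ _, a₀, hw0, left_ne_zero_of_mul hβ⟩⟩
  have hTn : (T.card : ℝ) ≤ Nat.card M := by
    rw [← card_irr_of_comm hM]
    exact_mod_cast Finset.card_le_univ T
  have hT1 : (1 : ℝ) ≤ T.card := by exact_mod_cast hT.card_pos
  have hzero : ∀ a, w a ≠ 0 → ∀ β, β ∉ T → x β a = 0 := by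
    intro a ha β hβ
    by_contra h0
    exact hβ (Finset.mem_filter.2 ⟨Finset.mem_univ _, a, ha, h0⟩)
  -- pointwise bound
  have hpt : ∀ a, Nat.card M * ((Nat.card M + 1 - T.card) * ∑ β ∈ T, w a * ‖x β a‖ ^ 2) ≤
      ∑ m, (w a * if m = 1 then 1 else (Nat.card M : ℝ) + 1) * ‖η (a, m)‖ ^ 2 := by
    intro a
    by_cases ha : w a = 0
    · simp [ha]
    have e1 : ∑ m, (w a * if m = 1 then 1 else (Nat.card M : ℝ) + 1) * ‖η (a, m)‖ ^ 2 =
        w a * ((Nat.card M + 1) * ∑ m, ‖η (a, m)‖ ^ 2 - Nat.card M * ‖η (a, 1)‖ ^ 2) := by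
      have : ∀ m : M, (w a * if m = 1 then 1 else (Nat.card M : ℝ) + 1) * ‖η (a, m)‖ ^ 2 =
          w a * ((Nat.card M + 1) * ‖η (a, m)‖ ^ 2 -
            if m = 1 then Nat.card M * ‖η (a, m)‖ ^ 2 else 0) := by
        intro m
        split_ifs <;> ring
      simp only [this]
      rw [← Finset.mul_sum, Finset.sum_sub_distrib, ← Finset.mul_sum, Finset.sum_ite_eq']
      simp
    have e2 : ∑ β : IrrCharacter M, ‖x β a‖ ^ 2 = ∑ β ∈ T, ‖x β a‖ ^ 2 :=
      (Finset.sum_subset (Finset.subset_univ T) fun β _ hβ => by simp [hzero a ha β hβ]).symm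
    have e3 : η (a, 1) = ∑ β ∈ T, x β a := by
      rw [hone]
      exact (Finset.sum_subset (Finset.subset_univ T) fun β _ hβ => hzero a ha β hβ).symm
    have e4 : ‖η (a, 1)‖ ^ 2 ≤ T.card * ∑ β ∈ T, ‖x β a‖ ^ 2 := by
      rw [e3]
      refine le_trans (pow_le_pow_left₀ (norm_nonneg _) (norm_sum_le _ _) 2) ?_
      exact sq_sum_le_card_mul_sum_sq
    rw [e1, hpars, e2, ← Finset.mul_sum]
    have hwa := hw a
    set S := ∑ β ∈ T, ‖x β a‖ ^ 2
    have : (Nat.card M : ℝ) * ((Nat.card M + 1 - T.card) * (w a * S)) =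
        w a * ((Nat.card M + 1) * (Nat.card M * S) - Nat.card M * (T.card * S)) := by ring
    rw [this]
    gcongr
  have hlow : T.card * (κ * (Nat.card A : ℝ) ^ 2) ≤ ∑ β ∈ T, ∑ a, w a * ‖x β a‖ ^ 2 := by
    rw [← nsmul_eq_mul]
    exact Finset.card_nsmul_le_sum _ _ _ fun β hβ => h _ (hx β) (Finset.mem_filter.1 hβ).2
  rw [Fintype.sum_prod_type]
  refine le_trans ?_ (Finset.sum_le_sum fun a _ => hpt a)
  rw [← Finset.mul_sum, ← Finset.mul_sum, Finset.sum_comm, Nat.card_prod]
  have hc : (0 : ℝ) ≤ Nat.card M + 1 - T.card := by linarith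
  have hK : 0 ≤ κ * (Nat.card A : ℝ) ^ 2 := by positivity
  calc κ * ((Nat.card A * Nat.card M : ℕ) : ℝ) ^ 2
      = Nat.card M * (Nat.card M * (κ * (Nat.card A : ℝ) ^ 2)) := by push_cast; ring
    _ ≤ Nat.card M * (((Nat.card M + 1 - T.card) * T.card) * (κ * (Nat.card A : ℝ) ^ 2)) := by
        gcongr
        nlinarith
    _ = Nat.card M * ((Nat.card M + 1 - T.card) * (T.card * (κ * (Nat.card A : ℝ) ^ 2))) := by
        ring
    _ ≤ _ := by gcongr

end Prod

section Ind

universe u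

variable {X : Type u} [Group X] [Finite X]

omit [Finite X] in
theorem mem_zpowers_mul_of_coprime {a b : X} (h : Commute a b)
    (hc : (orderOf a).Coprime (orderOf b)) : a ∈ zpowers (a * b) := by
  have h1 : (a * b) ^ orderOf b = a ^ orderOf b := by
    rw [h.mul_pow, pow_orderOf_eq_one, mul_one]
  obtain ⟨k, hk⟩ := exists_pow_eq_self_of_coprime hc.symm
  have h2 := Subgroup.pow_mem _ (Subgroup.pow_mem _ (mem_zpowers (a * b)) (orderOf b)) k
  rwa [h1, hk] at h2

/-- the kernel of the action of `C` on the section `W / W'` -/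
def secKer (C W W' : Subgroup X) (hW : ∀ c ∈ C, ∀ x ∈ W, c * x * c⁻¹ ∈ W)
    (hW' : ∀ c ∈ C, ∀ x ∈ W', c * x * c⁻¹ ∈ W') : Subgroup C where
  carrier := {c | ∀ x ∈ W, (c : X) * x * (c : X)⁻¹ * x⁻¹ ∈ W'}
  one_mem' := by
    intro x _
    simp
  mul_mem' := by
    intro a b ha hb x hx
    have h1 := hW' a a.2 _ (hb x hx)
    have h2 := ha x hx
    have := W'.mul_mem h1 h2
    convert this using 1
    simp only [coe_mul]
    group
  inv_mem' := by
    intro a ha x hx
    have h1 := ha _ (hW _ (C.inv_mem a.2) x hx)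
    have := W'.inv_mem h1
    convert this using 1
    simp only [coe_inv]
    group

theorem knoerr_ind (V C : Subgroup X) (hV : ∀ a ∈ V, ∀ b ∈ V, a * b = b * a)
    (hC : ∀ a ∈ C, ∀ b ∈ C, a * b = b * a) (hcop : (Nat.card C).Coprime (Nat.card V))
    {Z : Type u} [Group Z] [Fintype Z] (hZ : ∀ a b : Z, a * b = b * a) {w : Z → ℝ}
    (hw : ∀ z, 0 ≤ w z) {κ : ℝ} (hκ : 0 ≤ κ) (h : KB w κ) (n : ℕ) :
    ∀ W : Subgroup X, Nat.card W = n → W ≤ V → (∀ c ∈ C, ∀ x ∈ W, c * x * c⁻¹ ∈ W) →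
      ∃ (A : Type u) (_ : Group A) (_ : Fintype A) (π : Z × C →* A) (ω : A → ℝ),
        (∀ a b : A, a * b = b * a) ∧ (∀ a, 0 ≤ ω a) ∧ KB ω κ ∧
        (∀ b, π b = 1 → b.1 = 1 ∧ ∀ x ∈ W, (b.2 : X) * x = x * b.2) ∧
        (∀ b, w b.1 ≠ 0 → ω (π b) ≠ 0) ∧
        ∀ b, ω (π b) * Nat.card ↥(W ⊓ centralizer {(b.2 : X)}) ≤ w b.1 * Nat.card W := by
  classical
  induction n using Nat.strong_induction_on with
  | _ n ih =>
  intro W hn hWV hW
  by_cases hbot : W = ⊥
  · subst hbot
    refine ⟨Z, inferInstance, inferInstance, MonoidHom.fst _ _, w, hZ, hw, h, fun b hb => ⟨hb, ?_⟩,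
      fun b hb => hb, fun b => ?_⟩
    · intro x hx
      rw [mem_bot.1 hx, mul_one, one_mul]
    · simp
  obtain ⟨W', ⟨hlt, hW'⟩, hmax⟩ := (Finite.to_wellFoundedGT (α := Subgroup X)).wf.has_min
    {U : Subgroup X | U < W ∧ ∀ c ∈ C, ∀ x ∈ U, c * x * c⁻¹ ∈ U}
    ⟨⊥, bot_lt_iff_ne_bot.2 hbot, fun c _ x hx => by simp [mem_bot.1 hx]⟩
  have hcard : Nat.card W' < n := by
    rw [← hn]
    exact (card_le_of_le hlt.le).lt_of_ne fun he => hlt.ne (eq_of_le_of_card_ge hlt.le he.ge)
  obtain ⟨A, _, _, π, ω, hA, hω, hKB, hker, hsupp, hbd⟩ := ih _ hcard W' rfl (hlt.le.trans hWV) hW'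
  let K := secKer C W W' hW hW'
  have hCc : ∀ a b : C, a * b = b * a := fun a b => Subtype.ext (hC _ a.2 _ b.2)
  haveI : K.Normal := ⟨fun n hn g => by rw [hCc g n, mul_inv_cancel_right]; exact hn⟩
  letI : Fintype (C ⧸ K) := Fintype.ofFinite _
  have hM : ∀ a b : C ⧸ K, a * b = b * a := by
    intro a b
    obtain ⟨a, rfl⟩ := QuotientGroup.mk_surjective a
    obtain ⟨b, rfl⟩ := QuotientGroup.mk_surjective b
    rw [← QuotientGroup.mk_mul, ← QuotientGroup.mk_mul, hCc]
  -- an element outside `K` acts without fixed points on `W / W'`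
  have hfree : ∀ c : C, c ∉ K → ∀ x ∈ W, (c : X) * x * (c : X)⁻¹ * x⁻¹ ∈ W' → x ∈ W' := by
    intro c hc x hx hx'
    let U : Subgroup X :=
      { carrier := {y | y ∈ W ∧ (c : X) * y * (c : X)⁻¹ * y⁻¹ ∈ W'}
        one_mem' := ⟨W.one_mem, by simp⟩
        mul_mem' := by
          rintro a b ⟨ha, ha'⟩ ⟨hb, hb'⟩
          refine ⟨W.mul_mem ha hb, ?_⟩
          have h1 := hV _ (hWV ha) _ (hWV (hlt.le hb'))
          have := W'.mul_mem ha' hb'
          convert this using 1
          calc (c : X) * (a * b) * (c : X)⁻¹ * (a * b)⁻¹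
              = c * a * (c : X)⁻¹ * a⁻¹ * (a * (c * b * (c : X)⁻¹ * b⁻¹)) * a⁻¹ := by group
            _ = _ := by rw [h1]; group
        inv_mem' := by
          rintro a ⟨ha, ha'⟩
          refine ⟨W.inv_mem ha, ?_⟩
          have h1 := hV _ (hWV ha) _ (hWV (W.inv_mem (hW c c.2 a ha)))
          have := W'.inv_mem ha'
          convert this using 1
          calc (c : X) * a⁻¹ * (c : X)⁻¹ * a⁻¹⁻¹ = (c * a * (c : X)⁻¹)⁻¹ * a := by group
            _ = _ := by rw [← h1]; group }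
    have hU : ∀ d ∈ C, ∀ y ∈ U, d * y * d⁻¹ ∈ U := by
      rintro d hd y ⟨hy, hy'⟩
      refine ⟨hW d hd y hy, ?_⟩
      have := hW' d hd _ hy'
      convert this using 1
      have h1 := hC _ c.2 _ hd
      calc (c : X) * (d * y * d⁻¹) * (c : X)⁻¹ * (d * y * d⁻¹)⁻¹
          = (c * d) * y * (c * d)⁻¹ * (d * y * d⁻¹)⁻¹ := by group
        _ = _ := by rw [h1]; group
    have hUW : U < W := by
      refine lt_of_le_of_ne (fun y hy => hy.1) fun he => hc fun y hy => ?_
      rw [← he] at hy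
      exact hy.2
    have hle : W' ≤ U := fun y hy => ⟨hlt.le hy, W'.mul_mem (hW' c c.2 y hy) (W'.inv_mem hy)⟩
    have heq : W' = U := by
      by_contra hne
      exact hmax U ⟨hUW, hU⟩ (lt_of_le_of_ne hle hne)
    rw [heq]
    exact ⟨hx, hx'⟩
  have hidx : Nat.card (C ⧸ K) + 1 ≤ W'.relIndex W := by
    obtain ⟨x₀, hx₀, hx₀'⟩ := SetLike.exists_of_lt hlt
    let f : C → W ⧸ W'.subgroupOf W := fun c => (⟨c * x₀ * (c : X)⁻¹, hW c c.2 x₀ hx₀⟩ : W)
    have hf : ∀ a b : C, f a = f b → (a : C ⧸ K) = b := by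
      intro a b hab
      rw [QuotientGroup.eq, mem_subgroupOf] at hab
      rw [QuotientGroup.eq]
      by_contra hc
      apply hx₀'
      refine hfree _ hc x₀ hx₀ ?_
      have h1 := hW' _ (C.inv_mem a.2) _ hab
      have h2 := hV _ (hWV (W.inv_mem hx₀)) _ (hWV (hW _ (a⁻¹ * b).2 x₀ hx₀))
      rw [← h2]
      convert h1 using 1
      simp only [coe_mul, coe_inv]
      group
    have hf1 : ∀ a : C, f a ≠ ((1 : W) : W ⧸ W'.subgroupOf W) := by
      intro a ha
      rw [eq_comm, QuotientGroup.eq, mem_subgroupOf] at ha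
      apply hx₀'
      have h1 := hW' _ (C.inv_mem a.2) _ ha
      convert h1 using 1
      simp only [coe_mul, coe_inv, coe_one]
      group
    let g : Option (C ⧸ K) → W ⧸ W'.subgroupOf W := fun o =>
      o.elim ((1 : W) : W ⧸ W'.subgroupOf W) fun q => f q.out
    have hg : Function.Injective g := by
      rintro (_ | a) (_ | b) hab
      · rfl
      · exact absurd hab.symm (hf1 _)
      · exact absurd hab (hf1 _)
      · have := hf _ _ hab
        rw [QuotientGroup.out_eq', QuotientGroup.out_eq'] at this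
        rw [this]
    have := Nat.card_le_card_of_injective g hg
    rwa [Finite.card_option] at this
  have hWc : (Nat.card W : ℝ) = Nat.card W' * W'.relIndex W := by
    rw [← H21.card_mul_relIndex_of_le hlt.le]; push_cast; ring
  refine ⟨A × (C ⧸ K), inferInstance, inferInstance,
    π.prod ((QuotientGroup.mk' K).comp (MonoidHom.snd _ _)),
    fun x => ω x.1 * if x.2 = 1 then 1 else (Nat.card (C ⧸ K) : ℝ) + 1,
    fun a b => Prod.ext (hA _ _) (hM _ _), fun a => ?_, kb_prod hM hω hκ hKB, ?_, ?_, ?_⟩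
  · refine mul_nonneg (hω _) ?_
    split_ifs <;> positivity
  · rintro ⟨z, c⟩ hb
    simp only [MonoidHom.prod_apply, Prod.mk_eq_one, MonoidHom.comp_apply, MonoidHom.coe_snd,
      QuotientGroup.mk'_apply, QuotientGroup.eq_one_iff] at hb
    obtain ⟨h1, h2⟩ := hker _ hb.1
    refine ⟨h1, fun x hx => ?_⟩
    have hu := hb.2 x hx
    set u := (c : X) * x * (c : X)⁻¹ * x⁻¹ with hu_def
    have h3 : ∀ i : ℕ, (c : X) ^ i * x * ((c : X) ^ i)⁻¹ = u ^ i * x := by
      intro i
      induction i with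
      | zero => simp
      | succ i ih =>
        have hc' : (c : X) * u ^ i = u ^ i * c := h2 _ (W'.pow_mem hu i)
        calc (c : X) ^ (i + 1) * x * ((c : X) ^ (i + 1))⁻¹
            = c * ((c : X) ^ i * x * ((c : X) ^ i)⁻¹) * (c : X)⁻¹ := by rw [pow_succ']; group
          _ = (c * u ^ i) * x * (c : X)⁻¹ := by rw [ih]; group
          _ = u ^ i * (c * x * (c : X)⁻¹ * x⁻¹) * x := by rw [hc']; group
          _ = _ := by rw [← hu_def, pow_succ]
    have h4 := h3 (Nat.card C)
    have h5 : (c : X) ^ Nat.card C = 1 := by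
      rw [← coe_pow, pow_card_eq_one', coe_one]
    rw [h5] at h4
    have h6 : u ^ Nat.card C = 1 := by simpa using h4.symm
    have h7 : u ^ Nat.card V = 1 := by
      have : (⟨u, hWV (hlt.le hu)⟩ : V) ^ Nat.card V = 1 := pow_card_eq_one'
      exact congrArg Subtype.val this
    have h8 : u = 1 := by
      rw [← orderOf_eq_one_iff]
      exact Nat.eq_one_of_dvd_coprimes hcop (orderOf_dvd_of_pow_eq_one h6)
        (orderOf_dvd_of_pow_eq_one h7)
    show (c : X) * x = x * c
    calc (c : X) * x = u * (x * c) := by rw [hu_def]; group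
      _ = x * c := by rw [h8, one_mul]
  · intro b hb
    refine mul_ne_zero (hsupp b hb) ?_
    split_ifs <;> positivity
  · rintro ⟨z, c⟩
    have h1 := hbd (z, c)
    have h0 := hω (π (z, c))
    simp only [MonoidHom.prod_apply, MonoidHom.comp_apply, MonoidHom.coe_snd,
      QuotientGroup.mk'_apply, QuotientGroup.eq_one_iff] at h1 ⊢
    rw [hWc]
    have hr : (0 : ℝ) ≤ W'.relIndex W := by positivity
    split_ifs with hc
    · have h2 : Nat.card ↥(W ⊓ centralizer {(c : X)}) ≤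
          Nat.card ↥(W' ⊓ centralizer {(c : X)}) * W'.relIndex W := by
        have h3 : W' ⊓ centralizer {(c : X)} ≤ W ⊓ centralizer {(c : X)} :=
          inf_le_inf_right _ hlt.le
        rw [← H21.card_mul_relIndex_of_le h3]
        refine Nat.mul_le_mul_left _ ?_
        have h4 : W' ⊓ centralizer {(c : X)} = W' ⊓ (W ⊓ centralizer {(c : X)}) := by
          rw [← inf_assoc, inf_eq_left.2 hlt.le]
        rw [h4, inf_relIndex_right]
        exact relIndex_le_of_le_right inf_le_left (H21.relIndex_ne_zero' _ _)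
      calc ω (π (z, c)) * 1 * (Nat.card ↥(W ⊓ centralizer {(c : X)}) : ℝ)
          ≤ ω (π (z, c)) * 1 * (Nat.card ↥(W' ⊓ centralizer {(c : X)}) * W'.relIndex W) := by
            gcongr
            exact_mod_cast h2
        _ = (ω (π (z, c)) * Nat.card ↥(W' ⊓ centralizer {(c : X)})) * W'.relIndex W := by ring
        _ ≤ (w z * Nat.card W') * W'.relIndex W := by gcongr
        _ = _ := by ring
    · have h2 : W ⊓ centralizer {(c : X)} = W' ⊓ centralizer {(c : X)} := by
        refine le_antisymm (fun x hx => ⟨hfree c hc x hx.1 ?_, hx.2⟩)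
          (inf_le_inf_right _ hlt.le)
        have := mem_centralizer_singleton_iff.1 hx.2
        rw [← this]
        simp
      have h3 : (Nat.card (C ⧸ K) : ℝ) + 1 ≤ W'.relIndex W := by exact_mod_cast hidx
      rw [h2]
      calc ω (π (z, c)) * ((Nat.card (C ⧸ K) : ℝ) + 1) *
            (Nat.card ↥(W' ⊓ centralizer {(c : X)}) : ℝ)
          = (ω (π (z, c)) * Nat.card ↥(W' ⊓ centralizer {(c : X)})) *
            ((Nat.card (C ⧸ K) : ℝ) + 1) := by ring
        _ ≤ (w z * Nat.card W') * W'.relIndex W := by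
            have := hw z
            gcongr
        _ = _ := by ring

end Ind

end Cfsg.Agent.H89
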