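import Cfsg.Agent.H89.Real4
import Cfsg.Agent.H89.PrinDeg
import Cfsg.Agent.H89.RelMain
import Cfsg.Agent.H3.Tate
import Cfsg.Agent.H1.Frattini
import Cfsg.Agent.H1.InvSylow
import Cfsg.Agent.H5.Burnside
import Cfsg.Agent.H85.Cover
import Cfsg.Agent.H22.PSolvable
import Cfsg.Agent.H2.MinNormal
import Cfsg.Agent.H88.Deg3
import Cfsg.Agent.H49.Prod
import Cfsg.Agent.H21.Basic

/-!
Navarro–Wolf: in a `p`- and `q`-solvable group all of whose `p'`-degree irreducible characters have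
`q'`-degree, a Sylow `p`-subgroup normalises a Sylow `q`-subgroup.
-/

set_option autoImplicit false
set_option linter.style.haveILetI false

namespace Cfsg.Agent.H89

open Cfsg Cfsg.Agent.H5 Subgroup
open scoped Pointwise

universe u

variable {G : Type*} [Group G] [Finite G] {p q : ℕ}

theorem exists_over_not_dvd (hp : p.Prime) (K : Subgroup G) (hK : ¬ p ∣ K.index)
    (ψ : IrrCharacter K) (hψ : ¬ p ∣ charDegree (ψ : K → ℂ)) :
    ∃ χ : IrrCharacter G, ¬ p ∣ charDegree (χ : G → ℂ) ∧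
      mlt K.subtype (χ : G → ℂ) (ψ : K → ℂ) ≠ 0 := by
  letI : Fintype G := Fintype.ofFinite _
  letI : Fintype K := Fintype.ofFinite _
  obtain ⟨χ, hχ, h1, h2⟩ := H88.exists_constituent_not_dvd
    (H6.isCharacter_indFun K (isCharacter_of_isIrr ψ.2)) (n := p) (by
      rw [H88.charDegree_indFun K (isCharacter_of_isIrr ψ.2), hp.dvd_mul]
      tauto)
  refine ⟨⟨χ, hχ⟩, h2, (mlt_ne_zero_iff K.subtype ⟨χ, hχ⟩ ψ).2 ?_⟩
  exact (H88.classInner_indFun_ne_zero_iff K _ (isClassFunction_of_isIrr hχ)).1 h1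

omit [Finite G] in
theorem mem_stab_normal {N : Subgroup G} [N.Normal] {θ : N → ℂ} (g : G) :
    g ∈ stab N θ ↔ ∀ n n' : N, (n' : G) = g * n * g⁻¹ → θ n' = θ n := by
  rw [mem_stab, normalizer_eq_top]
  simp

theorem index_stab_dvd (N : Subgroup G) [N.Normal] {χ : IrrCharacter G} {θ : IrrCharacter N}
    (h : mlt N.subtype (χ : G → ℂ) (θ : N → ℂ) ≠ 0) :
    (stab N (θ : N → ℂ)).index ∣ charDegree (χ : G → ℂ) := by
  have D := cliffData_top θ (mem_stab_normal (θ := (θ : N → ℂ))) (le_stab_self θ)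
  obtain ⟨ψ, h1, h2⟩ := exists_mid_of_mlt_comp (stab N (θ : N → ℂ)).subtype
    (inclusion (le_stab_self θ)) h
  rw [D.charDegree_eq h2 h1, range_subtype]
  exact dvd_mul_right _ _

omit [Finite G] in
theorem isPGroup_quotient_of_sup (U P : Subgroup G) [U.Normal] (hP : IsPGroup p P)
    (h : U ⊔ P = ⊤) : IsPGroup p (G ⧸ U) := by
  intro y
  obtain ⟨g, rfl⟩ := QuotientGroup.mk_surjective y
  have h1 : g ∈ ((U ⊔ P : Subgroup G) : Set G) := by rw [h]; trivial
  rw [normal_mul] at h1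
  obtain ⟨u, hu, x, hx, rfl⟩ := h1
  obtain ⟨k, hk⟩ := hP ⟨x, hx⟩
  refine ⟨k, ?_⟩
  have h2 : x ^ p ^ k = 1 := congrArg Subtype.val hk
  simp only
  rw [QuotientGroup.mk_mul, (QuotientGroup.eq_one_iff u).2 hu, one_mul, ← QuotientGroup.mk_pow, h2,
    QuotientGroup.mk_one]

omit [Finite G] in
theorem subgroupOf_sup_subgroupOf (U P : Subgroup G) :
    U.subgroupOf (U ⊔ P) ⊔ P.subgroupOf (U ⊔ P) = ⊤ := by
  rw [← subgroupOf_sup le_sup_left le_sup_right, subgroupOf_self]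

theorem exists_over_of_sInv [hp : Fact p.Prime] (N : Subgroup G) [hN : N.Normal]
    (hpN : ¬ p ∣ Nat.card N) (P : Sylow p G) (θ : IrrCharacter N) (hθ : SInv P N θ) :
    ∃ χ : IrrCharacter G, ¬ p ∣ charDegree (χ : G → ℂ) ∧
      mlt N.subtype (χ : G → ℂ) (θ : N → ℂ) ≠ 0 := by
  have hNK : N ≤ N ⊔ P := le_sup_left
  let e := subgroupOfEquivOfLe hNK
  have hst : N ⊔ P ≤ stab N θ :=
    sup_le (le_stab_self θ) ((le_stab_iff (by rw [normalizer_eq_top]; exact le_top)).2 hθ)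
  obtain ⟨k, hk⟩ := IsPGroup.iff_card.1 (isPGroup_quotient_of_sup _ _
    (P.2.comap_subtype (K := N ⊔ P)) (subgroupOf_sup_subgroupOf N P))
  obtain ⟨η, hη, hext⟩ := H88.exists_extension_of_coprime_card (N.subgroupOf (N ⊔ P))
    (by
      rw [Nat.card_congr e.toEquiv, index, hk]
      exact ((hp.out.coprime_iff_not_dvd.2 hpN).symm).pow_right k)
    (isIrrCharacter_comp_equiv θ.2 e) (by
      rw [eq_top_iff]
      intro g _
      rw [H6.mem_inertia_iff]
      exact fun n => (mem_stab_normal _).1 (hst g.2) _ _ rfl)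
  have h1 : ∀ n : N, η (inclusion hNK n) = (θ : N → ℂ) n := fun n => hext (e.symm n)
  obtain ⟨χ, h2, h3⟩ := exists_over_not_dvd hp.out (N ⊔ P)
    (fun h => P.not_dvd_index (h.trans (index_dvd_of_le le_sup_right))) ⟨η, hη⟩ (by
      rw [H88.charDegree_congr (θ := (θ : N → ℂ)) (h1 1)]
      exact fun h => hpN (h.trans (degree_dvd_card θ.2 (H88.irr_charDegree_cast θ).symm)))
  exact ⟨χ, h2, mlt_comp_ne_zero (N ⊔ P).subtype (inclusion hNK) h3
    (by rw [mlt_eq_one_of_res _ h1]; exact one_ne_zero)⟩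

theorem le_of_normal_of_not_dvd_index [hq : Fact q.Prime] {N T : Subgroup G} [N.Normal]
    (hN : IsPGroup q N) (hT : ¬ q ∣ T.index) : N ≤ T := by
  obtain ⟨k, hk⟩ := IsPGroup.iff_card.1 hN
  rw [← relIndex_eq_one]
  exact Nat.eq_one_of_dvd_coprimes ((hq.out.coprime_iff_not_dvd.2 hT).pow_left k)
    (hk ▸ relIndex_dvd_card T N) (H3.relIndex_dvd_index_of_normal_right T N)

theorem exists_sylow_le [hq : Fact q.Prime] (U : Subgroup G) (hU : ¬ q ∣ U.index)
    (R : Sylow q U) : ∃ Q : Sylow q G, (Q : Subgroup G) = (R : Subgroup U).map U.subtype :=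
  ⟨(R.2.map U.subtype).toSylow (by
    rw [index_map_subtype, hq.out.dvd_mul]
    exact fun h => h.elim R.not_dvd_index hU), rfl⟩

theorem npc_aux [hp : Fact p.Prime] (P : Sylow p G) (N U : Subgroup G) [N.Normal] [U.Normal]
    (hNP : N ≤ P) (hNU : N ≤ U) (hidx : ¬ p ∣ N.relIndex U) (hU : IsPGroup p (G ⧸ U))
    (h : ⁅N, U⁆ ≤ ⁅(P : Subgroup G), (P : Subgroup G)⁆) : HasNormalPComplement p G := by
  let π := QuotientGroup.mk' ⁅N, U⁆
  have hπ : Function.Surjective π := QuotientGroup.mk'_surjective _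
  have hW : ⁅N, U⁆ ≤ N := commutator_le_left N U
  haveI : (U.map π).Normal := Normal.map inferInstance π hπ
  have hNp : IsPGroup p N := P.2.to_le hNP
  have h1 : HasNormalPComplement p (G ⧸ ⁅N, U⁆) := by
    refine H3.hasNormalPComplement_of_normal_of_isPGroup_quotient (U.map π) (fun y => ?_) ?_
    · obtain ⟨y, rfl⟩ := QuotientGroup.mk_surjective y
      obtain ⟨g, rfl⟩ := hπ y
      obtain ⟨k, hk⟩ := hU g
      refine ⟨k, ?_⟩
      rw [← QuotientGroup.mk_pow, QuotientGroup.eq_one_iff] at hk ⊢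
      rw [← map_pow]
      exact mem_map_of_mem π hk
    · refine H3.hasNormalPComplement_of_normalizer_le_centralizer
        (((hNp.map π).comap_subtype (K := U.map π)).toSylow (by
          change ¬ p ∣ (N.map π).relIndex (U.map π)
          rwa [relIndex_map_map, QuotientGroup.ker_mk', sup_eq_left.2 hW,
            sup_eq_left.2 (hW.trans hNU)])) ?_
      rintro ⟨_, u, hu, rfl⟩ - ⟨_, hx⟩ ⟨n, hn, rfl⟩
      apply Subtype.ext
      show π n * π u = π u * π n
      have h5 : π (n * u * n⁻¹ * u⁻¹) = 1 :=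
        (QuotientGroup.eq_one_iff _).2 (commutator_mem_commutator hn hu)
      rw [← map_mul, ← map_mul]
      calc π (n * u) = π (n * u * n⁻¹ * u⁻¹) * π (u * n) := by rw [← map_mul]; congr 1; group
        _ = _ := by rw [h5, one_mul]
  apply H3.hasNormalPComplement_of_inf_pResidual_le_frattini P
  refine le_trans (fun x hx => ?_) (H1.commutator_le_frattini P.2)
  have h3 := (H3.hasNormalPComplement_iff_inf_eq_bot (P.mapSurjective hπ)).1 h1
  have h4 : π x ∈ ((P.mapSurjective hπ : Sylow p _) : Subgroup _) ⊓ pResidual p (G ⧸ ⁅N, U⁆) :=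
    ⟨mem_map_of_mem π x.2, H3.map_pResidual_le π (mem_map_of_mem π hx)⟩
  rw [h3, mem_bot] at h4
  have h5 := h ((QuotientGroup.eq_one_iff (x : G)).1 h4)
  rw [← map_subtype_commutator] at h5
  obtain ⟨y, hy, hxy⟩ := h5
  rwa [← Subtype.ext hxy]

theorem exists_sylow_of_commutator_le [hp : Fact p.Prime] [hq : Fact q.Prime] (hpq : p ≠ q)
    (P : Sylow p G) (N U : Subgroup G) [N.Normal] (hNP : N ≤ P) (hNU : N ≤ U)
    (hPU : (P : Subgroup G) ≤ normalizer (U : Set G)) (hU : ¬ q ∣ U.index) {k : ℕ}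
    (hidx : N.relIndex U = q ^ k) (h : ⁅N, U⁆ ≤ ⁅(P : Subgroup G), (P : Subgroup G)⁆) :
    ∃ Q : Sylow q G, (P : Subgroup G) ≤ normalizer ((Q : Subgroup G) : Set G) ∧
      (Q : Subgroup G) ≤ U := by
  let H := U ⊔ (P : Subgroup G)
  have hUH : U ≤ H := le_sup_left
  have hPH : (P : Subgroup G) ≤ H := le_sup_right
  haveI : (U.subgroupOf H).Normal :=
    normal_subgroupOf_of_le_normalizer (sup_le le_normalizer hPU)
  have hcop : p.Coprime q := (Nat.coprime_primes hp.out hq.out).2 hpq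
  have hquot : IsPGroup p (H ⧸ U.subgroupOf H) :=
    isPGroup_quotient_of_sup _ _ (P.2.comap_subtype (K := H)) (subgroupOf_sup_subgroupOf U P)
  have hnpc : HasNormalPComplement p H := by
    refine npc_aux (P.subtype hPH) (N.subgroupOf H) (U.subgroupOf H) (comap_mono hNP)
      (comap_mono hNU) ?_ hquot ?_
    · rw [relIndex_subgroupOf hUH, hidx]
      exact hp.out.coprime_iff_not_dvd.1 (hcop.pow_right k)
    · rw [← map_subtype_le_map_subtype, map_commutator, map_commutator, Sylow.coe_subtype,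
        subgroupOf_map_subtype, subgroupOf_map_subtype, subgroupOf_map_subtype,
        inf_eq_left.2 hUH, inf_eq_left.2 hPH, inf_eq_left.2 (hNU.trans hUH)]
      exact h
  obtain ⟨R⟩ : Nonempty (Sylow q U) := inferInstance
  obtain ⟨Q, hQ⟩ := exists_sylow_le U hU R
  have hQU : (Q : Subgroup G) ≤ U := hQ ▸ map_subtype_le _
  have hK : (pResidual p H).map H.subtype = Q := by
    refine Q.is_maximal' ?_ fun y hy => ?_
    · rintro ⟨_, g, hg, rfl⟩
      refine ⟨k, Subtype.ext ?_⟩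
      have h1 : (g : G) ∈ U := H3.pResidual_le_of_isPGroup_quotient _ hquot hg
      have h2 : (g : G) ^ q ^ k ∈ N := by
        haveI : (N.subgroupOf U).Normal := inferInstance
        have := (N.subgroupOf U).pow_index_mem ⟨g, h1⟩
        rw [← hidx]
        exact this
      obtain ⟨j, hj⟩ := P.2 ⟨_, hNP h2⟩
      have h3 := (H3.mem_pResidual_iff_of_hasNormalPComplement hnpc g).1 hg
      rw [← orderOf_coe] at h3
      show (g : G) ^ q ^ k = 1
      rw [← orderOf_eq_one_iff]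
      exact Nat.eq_one_of_dvd_coprimes (h3.pow_right j) (orderOf_pow_dvd _)
        (orderOf_dvd_of_pow_eq_one (congrArg Subtype.val hj))
    · refine H3.mem_map_subtype_pResidual_of_coprime (hUH (hQU hy)) ?_
      obtain ⟨j, hj⟩ := Q.2 ⟨y, hy⟩
      exact (hcop.symm.pow_left j).coprime_dvd_left
        (orderOf_dvd_of_pow_eq_one (congrArg Subtype.val hj))
  refine ⟨Q, fun x hx => mem_normalizer_fintype fun y hy => ?_, hQU⟩
  rw [← hK] at hy ⊢
  obtain ⟨y, hy, rfl⟩ := hy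
  exact ⟨_, Normal.conj_mem inferInstance y hy ⟨x, hPH hx⟩, rfl⟩

omit [Finite G] in
theorem card_sup_dvd_of_le_normalizer (P Q : Subgroup G) (h : P ≤ normalizer (Q : Set G)) :
    Nat.card ↥(Q ⊔ P) ∣ Nat.card Q * Nat.card P :=
  ⟨_, (H21.card_sup_mul_card_inf h).symm⟩

theorem inf_centralizer_le_of_sInv [hp : Fact p.Prime] [hq : Fact q.Prime] (N P Q : Subgroup G)
    [N.Normal] (hP : IsPGroup p P) (hQ : IsPGroup q Q) (hPQ : P ≤ normalizer (Q : Set G))
    (hpN : ¬ p ∣ Nat.card N) (hqN : ¬ q ∣ Nat.card N)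
    (h : ∀ θ : IrrCharacter N, SInv P N θ → SInv Q N θ) :
    N ⊓ centralizer (P : Set G) ≤ centralizer (Q : Set G) := by
  have hn : ∀ X : Subgroup G, X ≤ normalizer (N : Set G) := fun X => by
    rw [normalizer_eq_top]; exact le_top
  obtain ⟨a, ha⟩ := IsPGroup.iff_card.1 hP
  obtain ⟨b, hb⟩ := IsPGroup.iff_card.1 hQ
  have hS := card_sup_dvd_of_le_normalizer P Q hPQ
  rw [ha, hb] at hS
  have hsolv : Group.IsSolvable ↥(Q ⊔ P) := isSolvable_of_card_dvd_prime_pow_mul hq.out hp.out hS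
  have hcp : (Nat.card N).Coprime (p ^ a) := (hp.out.coprime_iff_not_dvd.2 hpN).symm.pow_right a
  have hcop : (Nat.card N).Coprime (Nat.card ↥(Q ⊔ P)) :=
    (((hq.out.coprime_iff_not_dvd.2 hqN).symm.pow_right b).mul_right hcp).coprime_dvd_right hS
  have h1 := card_sInv_eq (Q ⊔ P) hsolv N (hn _) hcop
  have h2 := card_sInv_eq P (H1.solvable_of_le le_sup_right hsolv) N (hn _) (ha ▸ hcp)
  have h3 : Nat.card {χ : IrrCharacter N // SInv (Q ⊔ P) N χ} =
      Nat.card {χ : IrrCharacter N // SInv P N χ} :=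
    Nat.card_congr (Equiv.subtypeEquivRight fun θ => ⟨fun h' => h'.mono le_sup_right, fun h' =>
      (le_stab_iff (hn _)).1 (sup_le ((le_stab_iff (hn _)).2 (h θ h'))
        ((le_stab_iff (hn _)).2 h'))⟩)
  rw [h1, h2, card_irrCharacter, card_irrCharacter] at h3
  set C := N ⊓ centralizer (P : Set G)
  set D := N ⊓ centralizer ((Q ⊔ P : Subgroup G) : Set G)
  have hDC : D ≤ C := inf_le_inf_left _ (centralizer_le (le_sup_right : P ≤ Q ⊔ P))
  have hinj : Function.Injective (ConjClasses.map (inclusion hDC)) := by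
    intro x y hxy
    obtain ⟨x, rfl⟩ := ConjClasses.exists_rep x
    obtain ⟨y, rfl⟩ := ConjClasses.exists_rep y
    have h4 : IsConj (inclusion hDC x) (inclusion hDC y) := ConjClasses.mk_eq_mk_iff_isConj.1 hxy
    obtain ⟨c, hc⟩ := isConj_iff.1 h4
    obtain ⟨d, hd, hd'⟩ := exists_cent_conj (hn _) hcop (Or.inl hsolv) x.2.2 y.2.2 c.2.1
      (congrArg Subtype.val hc)
    exact ConjClasses.mk_eq_mk_iff_isConj.2 (isConj_iff.2 ⟨⟨d, hd⟩, Subtype.ext hd'⟩)
  have hsurj := (hinj.bijective_of_nat_card_le h3.ge).2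
  have h4 : D.subgroupOf C = ⊤ := by
    by_contra hne
    obtain ⟨x, hx⟩ := H85.exists_forall_conj_notMem hne
    obtain ⟨y, hy⟩ := hsurj (ConjClasses.mk x)
    obtain ⟨y, rfl⟩ := ConjClasses.exists_rep y
    have h4 : IsConj (inclusion hDC y) x := ConjClasses.mk_eq_mk_iff_isConj.1 hy
    obtain ⟨c, hc⟩ := isConj_iff.1 h4
    apply hx c
    rw [← hc, show c⁻¹ * (c * inclusion hDC y * c⁻¹) * c = inclusion hDC y by group]
    exact y.2
  intro x hx
  exact centralizer_le (le_sup_left : Q ≤ Q ⊔ P) ((subgroupOf_eq_top.1 h4 hx).2)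

theorem commutator_le_of_sInv [hp : Fact p.Prime] (P : Sylow p G) (N U : Subgroup G)
    [hN : N.Normal] (hNP : N ≤ P)
    (hinv : ∀ (θ : IrrCharacter N) (χ : IrrCharacter G), ¬ p ∣ charDegree (χ : G → ℂ) →
      mlt N.subtype (χ : G → ℂ) (θ : N → ℂ) ≠ 0 → SInv P N θ → SInv U N θ) :
    ⁅N, U⁆ ≤ ⁅(P : Subgroup G), (P : Subgroup G)⁆ := by
  rw [commutator_le]
  intro n hn' u hu
  have hu' : u * n⁻¹ * u⁻¹ ∈ N := hN.conj_mem _ (inv_mem hn') u
  let x₁ : (P : Subgroup G) := ⟨n, hNP hn'⟩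
  let x₂ : (P : Subgroup G) := ⟨_, hNP hu'⟩
  suffices hx : x₁ * x₂ ∈ _root_.commutator (P : Subgroup G) by
    rw [← map_subtype_commutator]
    exact ⟨x₁ * x₂, hx, by simp [x₁, x₂, commutatorElement_def, mul_assoc]⟩
  by_contra hx
  obtain ⟨θ, hθ1, hθ⟩ := exists_linear_apply_ne hx
  have hθc := isCharacter_of_isIrr θ.2
  have hθ2 := (H88.charDegree_eq_one_iff hθc).1 hθ1
  have hpθ : ¬ p ∣ charDegree θ.1 := by
    rw [hθ1]
    exact fun h => hp.out.ne_one (Nat.dvd_one.1 h)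
  obtain ⟨χ, hχ, hχ'⟩ := exists_over_not_dvd hp.out (P : Subgroup G) P.not_dvd_index θ hpθ
  obtain ⟨lam, hlam⟩ : ∃ lam : IrrCharacter N, ∀ n, θ.1 (inclusion hNP n) = lam.1 n :=
    ⟨⟨fun n => θ.1 (inclusion hNP n),
      isIrr_of_degree_one (isCharacter_comp hθc _) (by simpa using hθ2)⟩, fun _ => rfl⟩
  have h2 : mlt (inclusion hNP) θ.1 lam.1 ≠ 0 := by
    rw [mlt_eq_one_of_res _ hlam]; exact one_ne_zero
  have h5 : mlt N.subtype χ.1 lam.1 ≠ 0 :=
    mlt_comp_ne_zero (P : Subgroup G).subtype (inclusion hNP) hχ' h2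
  have h3 := hinv lam χ hχ h5 (fun x hx a b hab => by
      rw [← hlam, ← hlam, ← isClassFunction_of_isIrr θ.2 (inclusion hNP a) ⟨x, hx⟩]
      exact congrArg _ (Subtype.ext hab))
  apply hθ
  have h4 := h3 u hu ⟨n⁻¹, inv_mem hn'⟩ ⟨_, hu'⟩ rfl
  rw [← hlam, ← hlam] at h4
  have h6 : θ.1 x₂ = θ.1 x₁⁻¹ := h4
  rw [map_mul_of_degree_one hθc hθ2, h6, ← map_mul_of_degree_one hθc hθ2, mul_inv_cancel]

theorem exists_sylow_normalized [hp : Fact p.Prime] [hq : Fact q.Prime] (hpq : p ≠ q)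
    (G : Type u) [Group G] [Finite G] : IsPSolvable p G → IsPSolvable q G →
    (∀ χ : IrrCharacter G, ¬ p ∣ charDegree (χ : G → ℂ) → ¬ q ∣ charDegree (χ : G → ℂ)) →
    ∀ P : Sylow p G, ∃ Q : Sylow q G, (P : Subgroup G) ≤ normalizer ((Q : Subgroup G) : Set G) ∧
      ∀ T : Subgroup G, (P : Subgroup G) ≤ T → ¬ q ∣ T.index → (Q : Subgroup G) ≤ T := by
  refine H2.card_induction (P := fun G _ _ => IsPSolvable p G → IsPSolvable q G →
    (∀ χ : IrrCharacter G, ¬ p ∣ charDegree (χ : G → ℂ) → ¬ q ∣ charDegree (χ : G → ℂ)) →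
    ∀ P : Sylow p G, ∃ Q : Sylow q G, (P : Subgroup G) ≤ normalizer ((Q : Subgroup G) : Set G) ∧
      ∀ T : Subgroup G, (P : Subgroup G) ≤ T → ¬ q ∣ T.index → (Q : Subgroup G) ≤ T) G ?_
  intro G _ _ ih hps hqs h P
  rcases subsingleton_or_nontrivial G with hG | hG
  · obtain ⟨Q⟩ : Nonempty (Sylow q G) := inferInstance
    exact ⟨Q, (Subsingleton.elim _ _).le, fun T _ _ => (Subsingleton.elim _ _).le⟩
  obtain ⟨N, hN, hN0, hmin⟩ := H2.exists_minimal_normal (G := G)
  let π := QuotientGroup.mk' N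
  have hπ : Function.Surjective π := QuotientGroup.mk'_surjective _
  obtain ⟨Q₁, hQ₁, hQ₁'⟩ := ih (G ⧸ N) (by
      rw [← N.card_mul_index]
      exact lt_mul_of_one_lt_left (Nat.pos_of_ne_zero index_ne_zero_of_finite)
        ((one_lt_card_iff_ne_bot N).2 hN0))
    (H22.IsPSolvable.quotient hps N) (H22.IsPSolvable.quotient hqs N)
    (fun φ hφ => by
      have := h ⟨_, isIrrCharacter_inflate N φ.2⟩ (by rwa [H88.charDegree_inflate])
      rwa [H88.charDegree_inflate] at this) (P.mapSurjective hπ)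
  let U := (Q₁ : Subgroup (G ⧸ N)).comap π
  have hNU : N ≤ U := fun n hn => by
    rw [mem_comap, show π n = 1 from (QuotientGroup.eq_one_iff n).2 hn]
    exact one_mem _
  have hPU : (P : Subgroup G) ≤ normalizer (U : Set G) := fun x hx =>
    le_normalizer_comap π (hQ₁ (mem_map_of_mem π hx))
  have hUT : ∀ T : Subgroup G, (P : Subgroup G) ≤ T → N ≤ T → ¬ q ∣ T.index → U ≤ T := by
    intro T h1 h2 h3
    have := comap_mono (f := π) (hQ₁' (T.map π) (map_mono h1)
      (fun h4 => h3 (h4.trans (index_map_dvd _ hπ))))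
    rwa [comap_map_eq, QuotientGroup.ker_mk', sup_eq_left.2 h2] at this
  have hU : ¬ q ∣ U.index := by
    rw [index_comap_of_surjective _ hπ]
    exact Q₁.not_dvd_index
  obtain ⟨k, hk⟩ : ∃ k, N.relIndex U = q ^ k := by
    obtain ⟨k, hk⟩ := IsPGroup.iff_card.1 Q₁.2
    refine ⟨k, ?_⟩
    have := relIndex_ker U π
    rw [QuotientGroup.ker_mk', map_comap_eq_self_of_surjective hπ] at this
    rw [← hk, this]
  have hn : ∀ X : Subgroup G, X ≤ normalizer (N : Set G) := fun X => by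
    rw [normalizer_eq_top]; exact le_top
  have hinv : ∀ (θ : IrrCharacter N) (χ : IrrCharacter G), ¬ p ∣ charDegree (χ : G → ℂ) →
      mlt N.subtype (χ : G → ℂ) (θ : N → ℂ) ≠ 0 → SInv P N θ → SInv U N θ := by
    intro θ χ h1 h2 h3
    exact (le_stab_iff (hn _)).1 (hUT _ ((le_stab_iff (hn _)).2 h3) (le_stab_self θ)
      fun h4 => h χ h1 (h4.trans (index_stab_dvd N h2)))
  rcases H22.minimal_normal_isPGroup_or_coprime N (H22.IsPSolvable.subgroup hqs N) hmin with
    hNq | hNq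
  · have hUq : IsPGroup q U :=
      Q₁.2.comap_of_ker_isPGroup π (by rwa [QuotientGroup.ker_mk'])
    exact ⟨hUq.toSylow hU, hPU, fun T h1 h2 =>
      hUT T h1 (le_of_normal_of_not_dvd_index hNq h2) h2⟩
  rcases H22.minimal_normal_isPGroup_or_coprime N (H22.IsPSolvable.subgroup hps N) hmin with
    hNp | hNp
  · have hNP : N ≤ P := hNp.le_sylow_of_normal P
    obtain ⟨Q, h1, h2⟩ := exists_sylow_of_commutator_le hpq P N U hNP hNU hPU hU hk 
      (commutator_le_of_sInv P N U hNP hinv)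
    exact ⟨Q, h1, fun T h3 h4 => h2.trans (hUT T h3 (hNP.trans h3) h4)⟩
  have hpN : ¬ p ∣ Nat.card N := hp.out.coprime_iff_not_dvd.1 hNp.symm
  have hqN : ¬ q ∣ Nat.card N := hq.out.coprime_iff_not_dvd.1 hNq.symm
  obtain ⟨a, ha⟩ := IsPGroup.iff_card.1 P.2
  have hPs : Group.IsSolvable (P : Subgroup G) :=
    isSolvable_of_card_dvd_prime_pow_mul hp.out hq.out (a := a) (b := 0) (by rw [ha]; simp)
  have hcop : (Nat.card (P : Subgroup G)).Coprime (Nat.card U) := by
    rw [ha, H22.card_eq_card_mul_relIndex hNU, hk]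
    exact (hNp.symm.mul_right (((Nat.coprime_primes hp.out hq.out).2 hpq).pow_right k)).pow_left a
  obtain ⟨R, hR⟩ := H1.invariant_sylow_exists P U hPU hcop (Or.inl hPs) q
  obtain ⟨Q, hQ⟩ := exists_sylow_le U hU R
  have hQU : (Q : Subgroup G) ≤ U := hQ ▸ map_subtype_le _
  rw [← hQ] at hR
  have hcent := inf_centralizer_le_of_sInv N P Q P.2 Q.2 hR hpN hqN fun θ hθ => by
    obtain ⟨χ, h1, h2⟩ := exists_over_of_sInv N hpN P θ hθ
    exact (hinv θ χ h1 h2 hθ).mono hQU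
  refine ⟨Q, hR, fun T h1 h2 => ?_⟩
  have h3 : U ≤ N ⊔ T := hUT _ (le_sup_of_le_right h1) le_sup_left
    fun h => h2 (h.trans (index_dvd_of_le le_sup_right))
  have h4 : ¬ q ∣ (T ⊓ U).index := by
    rw [← relIndex_mul_index (inf_le_right : T ⊓ U ≤ U), hq.out.dvd_mul, not_or]
    refine ⟨fun h5 => hqN (h5.trans ?_), hU⟩
    have h6 : N ⊔ T ⊓ U = U := by
      rw [← H49.modular_left (Or.inr (hn T)) hNU, inf_eq_right.2 h3]
    have h7 := H22.card_eq_card_mul_relIndex (inf_le_right : T ⊓ U ≤ U)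
    have h8 := card_sup_dvd_of_le_normalizer (T ⊓ U) N (hn _)
    rw [h6, h7, mul_comm (Nat.card N)] at h8
    exact Nat.dvd_of_mul_dvd_mul_left Nat.card_pos h8
  obtain ⟨R', hR'⟩ := H1.invariant_sylow_exists P (T ⊓ U)
    (le_normalizer_inf (h1.trans le_normalizer) hPU)
    (hcop.coprime_dvd_right (card_dvd_of_le inf_le_right)) (Or.inl hPs) q
  obtain ⟨Q', hQ'⟩ := exists_sylow_le (T ⊓ U) h4 R'
  have hQ'U : (Q' : Subgroup G) ≤ T ⊓ U := hQ' ▸ map_subtype_le _
  rw [← hQ'] at hR'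
  -- `Q'` is conjugate to `Q` by an element of `N`
  have hNQ : N ⊔ Q = U := by
    refine le_antisymm (sup_le hNU hQU) ?_
    rw [← relIndex_eq_one]
    refine Nat.eq_one_of_dvd_coprimes ((hq.out.coprime_iff_not_dvd.2 Q.not_dvd_index).pow_left k)
      (hk ▸ relIndex_dvd_of_le_left _ le_sup_left) ?_
    exact (relIndex_dvd_index_of_le (sup_le hNU hQU)).trans (index_dvd_of_le le_sup_right)
  obtain ⟨u, hu⟩ := MulAction.exists_smul_eq U (Q.subtype hQU) (Q'.subtype (hQ'U.trans inf_le_right))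
  have hu' : (u : G) ∈ ((N ⊔ Q : Subgroup G) : Set G) := by rw [hNQ]; exact u.2
  rw [normal_mul] at hu'
  obtain ⟨n, hn', y, hy, hny⟩ := hu'
  have h5 : MulAut.conj n • (Q : Subgroup G) = Q' := by
    have h6 := congrArg (fun X : Sylow q U => (X : Subgroup U).map U.subtype) hu
    simp only [Sylow.coe_subgroup_smul, H1.map_subtype_conj_smul, Sylow.coe_subtype,
      subgroupOf_map_subtype, inf_eq_left.2 hQU, inf_eq_left.2 (hQ'U.trans inf_le_right)] at h6
    rw [← h6, ← hny]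
    simp only
    rw [map_mul, mul_smul, conj_smul_eq_self_of_mem hy]
  obtain ⟨c, hc, hc'⟩ := H1.invariant_conj_centralizer P N (hn _)
    (hcop.coprime_dvd_right (card_dvd_of_le hNU)) (Or.inl hPs) Q n hn' hR (h5 ▸ hR')
  have h6 : MulAut.conj c • (Q : Subgroup G) = Q :=
    H2.conj_smul_eq_iff_mem_normalizer.2 (centralizer_le_normalizer _ (hcent hc))
  rw [← h6, hc', h5]
  exact hQ'U.trans inf_le_left

end Cfsg.Agent.H89
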